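import Mathlib

/-!
# S5925 box N: the relations of `L₂(11)` and the extension by an outer automorphism
-/

set_option autoImplicit false

namespace Cfsg.Agent.H828.E83

/-- the relations of `L₂(11)` used for `E₈(3)` -/
structure Rel {H : Type*} [Group H] (x y t : H) : Prop where
  x11 : x ^ 11 = 1
  x1 : x ≠ 1
  y5 : y ^ 5 = 1
  y1 : y ≠ 1
  yx : y * x * y⁻¹ = x ^ 3
  tt : t * t = 1
  ty : t * y * t⁻¹ = y⁻¹
  xt : x * t * (x * t) * (x * t) = 1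

/-- facts on the group generated by `x, y, t` -/
structure Dat {H : Type*} [Group H] (S : Subgroup H) (x y t : H) : Prop extends Rel x y t where
  cl : Subgroup.closure {x, y, t} = S
  cent : ∀ z ∈ S, z * x = x * z → ∃ k : ℕ, z = x ^ k
  centy : ∀ z ∈ S, z * y = y * z → ∃ k : ℕ, z = y ^ k
  eleven : ∀ z ∈ S, z ^ 11 = 1 → z ≠ 1 → ∃ c ∈ S, ∃ k : ℕ, k < 11 ∧ k ≠ 0 ∧ c * z * c⁻¹ = x ^ k
  inv : ∀ k : ℕ, x ^ k * t * (x ^ k * t) * (x ^ k * t) = 1 → k % 11 = 1 ∨ k % 11 = 10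

section

variable {H : Type*} [Group H]

theorem Rel.map {K : Type*} [Group K] {x y t : H} (h : Rel x y t) (f : H →* K) (hf : Function.Injective f) :
    Rel (f x) (f y) (f t) where
  x11 := by rw [← map_pow, h.x11, map_one]
  x1 := fun h1 => h.x1 (hf (h1.trans (map_one f).symm))
  y5 := by rw [← map_pow, h.y5, map_one]
  y1 := fun h1 => h.y1 (hf (h1.trans (map_one f).symm))
  yx := by rw [← map_inv, ← map_mul, ← map_mul, h.yx, map_pow]
  tt := by rw [← map_mul, h.tt, map_one]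
  ty := by rw [← map_inv, ← map_mul, ← map_mul, h.ty, map_inv]
  xt := by rw [← map_mul, ← map_mul, ← map_mul, h.xt, map_one]

theorem pow_mod {x : H} {n : ℕ} (h : x ^ n = 1) (k : ℕ) : x ^ k = x ^ (k % n) := by
  conv_lhs => rw [← Nat.div_add_mod k n]
  rw [pow_add, pow_mul, h, one_pow, one_mul]

theorem pow_eq {x : H} {n : ℕ} (h : x ^ n = 1) {a b : ℕ} (hab : a % n = b % n) : x ^ a = x ^ b := by
  rw [pow_mod h a, hab, ← pow_mod h b]

theorem cj_pow (g z : H) (n : ℕ) : g * z ^ n * g⁻¹ = (g * z * g⁻¹) ^ n := (conj_pow).symm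

theorem Rel.yxk {x y t : H} (h : Rel x y t) (k : ℕ) : y * x ^ k * y⁻¹ = x ^ (3 * k) := by
  rw [cj_pow, h.yx, ← pow_mul]

theorem Rel.yxk' {x y t : H} (h : Rel x y t) (k : ℕ) : y * x ^ k = x ^ (3 * k) * y := by
  rw [← h.yxk, inv_mul_cancel_right]

theorem Rel.yixk {x y t : H} (h : Rel x y t) (i k : ℕ) : y ^ i * x ^ k * (y ^ i)⁻¹ = x ^ (3 ^ i * k) := by
  induction i with
  | zero => rw [pow_zero, pow_zero, one_mul, one_mul, inv_one, mul_one]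
  | succ i ih =>
    have h1 : y ^ (i + 1) * x ^ k * (y ^ (i + 1))⁻¹ = y * (y ^ i * x ^ k * (y ^ i)⁻¹) * y⁻¹ := by
      rw [pow_succ']; group
    rw [h1, ih, h.yxk]
    congr 1
    rw [pow_succ]; ring

theorem Rel.tinv {x y t : H} (h : Rel x y t) : t⁻¹ = t := inv_eq_of_mul_eq_one_right h.tt

theorem Rel.tyk {x y t : H} (h : Rel x y t) (k : ℕ) : t * y ^ k = (y ^ k)⁻¹ * t := by
  rw [← inv_pow, ← h.ty, ← cj_pow, inv_mul_cancel_right]

end

section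

variable {H : Type*} [Group H] {S : Subgroup H} {x y t : H}

/-- every element of the overgroup is, modulo `S`, `1` or the outer automorphism -/
theorem Dat.key (hD : Dat S x y t) [hn : S.Normal] (g : H) : ∃ s ∈ S, (s * g) * y = y * (s * g) ∧ (s * g) * t = t * (s * g) ∧
    ((s * g) * x * (s * g)⁻¹ = x ∨ (s * g) * x * (s * g)⁻¹ = x⁻¹) := by
  have hR := hD.toRel
  have hx : x ∈ S := by rw [← hD.cl]; exact Subgroup.subset_closure (by simp)
  have hy : y ∈ S := by rw [← hD.cl]; exact Subgroup.subset_closure (by simp)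
  have ht : t ∈ S := by rw [← hD.cl]; exact Subgroup.subset_closure (by simp)
  -- first step
  obtain ⟨c, hc, k, hk, hk0, hck⟩ := hD.eleven (g * x * g⁻¹) (hn.conj_mem x hx g)
    (by rw [← cj_pow, hR.x11, mul_one, mul_inv_cancel]) (fun h => hR.x1 (conj_eq_one_iff.1 h))
  obtain ⟨g1, hg1⟩ : ∃ g1, g1 = c * g := ⟨_, rfl⟩
  have e1 : g1 * x * g1⁻¹ = x ^ k := by rw [← hck, hg1]; group
  obtain ⟨k', hk'⟩ : ∃ k' : ℕ, k * k' % 11 = 1 := by
    have : ∀ k < 11, k ≠ 0 → ∃ k' < 11, k * k' % 11 = 1 := by decide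
    obtain ⟨k', -, h⟩ := this k hk hk0
    exact ⟨k', h⟩
  have e2 : ∀ m : ℕ, (g1 * y * g1⁻¹) * x ^ m * (g1 * y * g1⁻¹)⁻¹ = x ^ (3 * m) := by
    intro m
    have h1 : x = (x ^ k) ^ k' := by
      rw [← pow_mul, pow_mod hR.x11, hk', pow_one]
    have h2 : (g1 * y * g1⁻¹) * x ^ k * (g1 * y * g1⁻¹)⁻¹ = (x ^ k) ^ 3 := by
      rw [← e1]
      have : g1 * y * g1⁻¹ * (g1 * x * g1⁻¹) * (g1 * y * g1⁻¹)⁻¹ = g1 * (y * x * y⁻¹) * g1⁻¹ := by group
      rw [this, hR.yx, cj_pow]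
    have h3 : (g1 * y * g1⁻¹) * x * (g1 * y * g1⁻¹)⁻¹ = x ^ 3 := by
      conv_lhs => rw [h1]
      rw [cj_pow, h2, ← pow_mul, ← pow_mul]
      refine pow_eq hR.x11 ?_
      rw [show k * (3 * k') = 3 * (k * k') by ring, Nat.mul_mod, hk']
    rw [cj_pow, h3, ← pow_mul, mul_comm]
  have e3 : (g1 * y * g1⁻¹ * y⁻¹) * x = x * (g1 * y * g1⁻¹ * y⁻¹) := by
    have h1 : y⁻¹ * x = x ^ 4 * y⁻¹ := by
      rw [inv_mul_eq_iff_eq_mul, ← mul_assoc, hR.yxk', mul_inv_cancel_right, pow_eq hR.x11 (b := 1) (by norm_num), pow_one]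
    rw [mul_assoc _ y⁻¹, h1, ← mul_assoc]
    have h2 := e2 4
    rw [mul_inv_eq_iff_eq_mul, pow_eq hR.x11 (a := 3 * 4) (b := 1) (by norm_num), pow_one] at h2
    rw [h2]
    simp only [mul_assoc]
  obtain ⟨j, hj⟩ := hD.cent _ (S.mul_mem (hn.conj_mem y hy g1) (S.inv_mem hy)) e3
  rw [mul_inv_eq_iff_eq_mul] at hj
  obtain ⟨g2, hg2⟩ : ∃ g2, g2 = x ^ (6 * j) * g1 := ⟨_, rfl⟩
  have f1 : g2 * x * g2⁻¹ = x ^ k := by
    have : g2 * x * g2⁻¹ = x ^ (6 * j) * (g1 * x * g1⁻¹) * (x ^ (6 * j))⁻¹ := by rw [hg2]; group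
    rw [this, e1, ← pow_add, add_comm, pow_add, mul_inv_cancel_right]
  have f2 : g2 * y * g2⁻¹ = y := by
    have : g2 * y * g2⁻¹ = x ^ (6 * j) * (g1 * y * g1⁻¹) * (x ^ (6 * j))⁻¹ := by rw [hg2]; group
    rw [this, hj, mul_inv_eq_iff_eq_mul, hR.yxk', ← mul_assoc, ← pow_add]
    congr 1
    refine pow_eq hR.x11 ?_
    omega
  have f3 : (g2 * t * g2⁻¹ * t) * y = y * (g2 * t * g2⁻¹ * t) := by
    have h1 : (g2 * t * g2⁻¹) * y * (g2 * t * g2⁻¹)⁻¹ = y⁻¹ := by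
      conv_lhs => rw [← f2]
      have : g2 * t * g2⁻¹ * (g2 * y * g2⁻¹) * (g2 * t * g2⁻¹)⁻¹ = g2 * (t * y * t⁻¹) * g2⁻¹ := by group
      rw [this, hR.ty]
      have h0 : g2 * y⁻¹ * g2⁻¹ = (g2 * y * g2⁻¹)⁻¹ := by group
      rw [h0, f2]
    have h2 : t * y = y⁻¹ * t := by rw [← hR.ty, inv_mul_cancel_right]
    obtain ⟨t1, ht1⟩ : ∃ t1, t1 = g2 * t * g2⁻¹ := ⟨_, rfl⟩
    rw [← ht1] at h1 ⊢
    have h3 : t1 * y⁻¹ = y * t1 := by
      rw [mul_inv_eq_iff_eq_mul] at h1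
      rw [mul_inv_eq_iff_eq_mul, mul_assoc, h1, mul_inv_cancel_left]
    rw [mul_assoc, h2, ← mul_assoc, h3, mul_assoc]
  obtain ⟨i, hi⟩ := hD.centy _ (S.mul_mem (hn.conj_mem t ht g2) ht) f3
  have hi' : g2 * t * g2⁻¹ = y ^ i * t := by
    rw [← hi, mul_assoc _ t t, hR.tt, mul_one]
  obtain ⟨g3, hg3⟩ : ∃ g3, g3 = y ^ (2 * i) * g2 := ⟨_, rfl⟩
  have p1 : g3 * x * g3⁻¹ = x ^ (3 ^ (2 * i) * k) := by
    have : g3 * x * g3⁻¹ = y ^ (2 * i) * (g2 * x * g2⁻¹) * (y ^ (2 * i))⁻¹ := by rw [hg3]; group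
    rw [this, f1, hR.yixk]
  have p2 : g3 * y * g3⁻¹ = y := by
    have : g3 * y * g3⁻¹ = y ^ (2 * i) * (g2 * y * g2⁻¹) * (y ^ (2 * i))⁻¹ := by rw [hg3]; group
    rw [this, f2, ← pow_succ, pow_succ', mul_inv_cancel_right]
  have p3 : g3 * t * g3⁻¹ = t := by
    have : g3 * t * g3⁻¹ = y ^ (2 * i) * (g2 * t * g2⁻¹) * (y ^ (2 * i))⁻¹ := by rw [hg3]; group
    rw [this, hi', mul_inv_eq_iff_eq_mul, hR.tyk, ← mul_assoc, ← pow_add]
    congr 1
    rw [eq_inv_iff_mul_eq_one, ← pow_add, pow_eq hR.y5 (b := 0) (by omega), pow_zero]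
  refine ⟨y ^ (2 * i) * (x ^ (6 * j) * c), S.mul_mem (S.pow_mem hy _) (S.mul_mem (S.pow_mem hx _) hc), ?_⟩
  have hg : y ^ (2 * i) * (x ^ (6 * j) * c) * g = g3 := by rw [hg3, hg2, hg1]; group
  rw [hg]
  refine ⟨by rwa [mul_inv_eq_iff_eq_mul] at p2, by rwa [mul_inv_eq_iff_eq_mul] at p3, ?_⟩
  obtain ⟨m, hm⟩ : ∃ m, m = 3 ^ (2 * i) * k := ⟨_, rfl⟩
  rw [← hm] at p1
  have q1 : x ^ m * t * (x ^ m * t) * (x ^ m * t) = 1 := by
    have h1 : x ^ m * t = g3 * (x * t) * g3⁻¹ := by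
      have h0 : g3 * (x * t) * g3⁻¹ = (g3 * x * g3⁻¹) * (g3 * t * g3⁻¹) := by group
      rw [h0, p1, p3]
    rw [h1]
    have : g3 * (x * t) * g3⁻¹ * (g3 * (x * t) * g3⁻¹) * (g3 * (x * t) * g3⁻¹) = g3 * (x * t * (x * t) * (x * t)) * g3⁻¹ := by
      group
    rw [this, hR.xt, mul_one, mul_inv_cancel]
  rcases hD.inv m q1 with h | h
  · left
    rw [p1, pow_mod hR.x11, h, pow_one]
  · right
    rw [p1, pow_mod hR.x11, h, eq_inv_iff_mul_eq_one, ← pow_succ, hR.x11]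

/-- the extension -/
theorem Dat.ext (hD : Dat S x y t) [hn : S.Normal] (hC : ∀ z : H, (∀ s ∈ S, s * z = z * s) → z = 1) (hS : S ≠ ⊤) :
    ∃ h : H, h ∉ S ∧ h * h = 1 ∧ h * x * h⁻¹ = x⁻¹ ∧ h * y = y * h ∧ h * t = t * h ∧
      Subgroup.closure {x, y, t, h} = ⊤ := by
  have hcen : ∀ z : H, z * x = x * z → z * y = y * z → z * t = t * z → z = 1 := by
    intro z hx hy ht
    refine hC z fun s hs => ?_
    have h1 : Subgroup.closure {x, y, t} ≤ Subgroup.centralizer {z} := by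
      rw [Subgroup.closure_le]
      rintro w (rfl | rfl | rfl)
      · exact Subgroup.mem_centralizer_singleton_iff.2 hx.symm
      · exact Subgroup.mem_centralizer_singleton_iff.2 hy.symm
      · exact Subgroup.mem_centralizer_singleton_iff.2 ht.symm
    rw [hD.cl] at h1
    exact Subgroup.mem_centralizer_singleton_iff.1 (h1 hs)
  -- an element outside
  have hout : ∀ g : H, g ∉ S → ∃ s ∈ S, (s * g) * y = y * (s * g) ∧ (s * g) * t = t * (s * g) ∧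
      (s * g) * x * (s * g)⁻¹ = x⁻¹ := by
    intro g hg
    obtain ⟨s, hs, h1, h2, h3⟩ := hD.key g
    refine ⟨s, hs, h1, h2, h3.resolve_left fun h4 => hg ?_⟩
    rw [mul_inv_eq_iff_eq_mul] at h4
    have h5 := hcen _ h4 h1 h2
    rw [mul_eq_one_iff_inv_eq] at h5
    rw [← h5]
    exact S.inv_mem hs
  obtain ⟨g0, hg0⟩ : ∃ g0, g0 ∉ S := by
    by_contra h
    push Not at h
    exact hS (eq_top_iff.2 fun g _ => h g)
  obtain ⟨s0, hs0, h1, h2, h3⟩ := hout g0 hg0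
  set h := s0 * g0 with hh
  have hxx : h * x⁻¹ * h⁻¹ = x := by
    have := congrArg (fun z => z⁻¹) h3
    simp only [mul_inv_rev, inv_inv] at this
    rw [← mul_assoc] at this
    exact this
  have hsq : h * h = 1 := by
    refine hcen _ ?_ ?_ ?_
    · rw [← mul_inv_eq_iff_eq_mul]
      have : h * h * x * (h * h)⁻¹ = h * (h * x * h⁻¹) * h⁻¹ := by group
      rw [this, h3, hxx]
    · rw [mul_assoc, h1, ← mul_assoc, h1, mul_assoc]
    · rw [mul_assoc, h2, ← mul_assoc, h2, mul_assoc]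
  refine ⟨h, fun hc => hg0 ((Subgroup.mul_mem_cancel_left S hs0).1 hc), hsq, h3, h1, h2, ?_⟩
  rw [eq_top_iff]
  intro g _
  have hle : S ≤ Subgroup.closure {x, y, t, h} := by
    rw [← hD.cl, Subgroup.closure_le]
    rintro w (rfl | rfl | rfl) <;> exact Subgroup.subset_closure (by simp)
  have hh' : h ∈ Subgroup.closure {x, y, t, h} := Subgroup.subset_closure (by simp)
  by_cases hg : g ∈ S
  · exact hle hg
  · obtain ⟨s, hs, k1, k2, k3⟩ := hout g hg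
    have h4 : h * (s * g) = 1 := by
      refine hcen _ ?_ ?_ ?_
      · rw [← mul_inv_eq_iff_eq_mul]
        have : h * (s * g) * x * (h * (s * g))⁻¹ = h * ((s * g) * x * (s * g)⁻¹) * h⁻¹ := by group
        rw [this, k3, hxx]
      · rw [mul_assoc, k1, ← mul_assoc, h1, mul_assoc]
      · rw [mul_assoc, k2, ← mul_assoc, h2, mul_assoc]
    have h5 : g = s⁻¹ * h⁻¹ := by
      rw [eq_inv_mul_iff_mul_eq]
      exact (mul_eq_one_iff_eq_inv'.1 h4)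
    rw [h5]
    exact Subgroup.mul_mem _ (Subgroup.inv_mem _ (hle hs)) (Subgroup.inv_mem _ hh')

end

end Cfsg.Agent.H828.E83
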