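import Cfsg.Agent.H828.E83.Rel
import Cfsg.Agent.H912.ElevenPSL
import Cfsg.Agent.UGT.End.OfFix
import Cfsg.Agent.TwoFusion.SLTwoFacts
import Cfsg.Agent.LieClassical.FieldTransfer

/-!
# S5925 box N: groups with generalized Fitting subgroup `L₂(11)`
-/

set_option autoImplicit false

namespace Cfsg.Agent.H828.E83

open Matrix Cfsg.Agent.H911.SLTwo Cfsg.Agent.H911 Cfsg.Agent.H912.Eleven

theorem relT : Rel (mk (U 1) : TT) (mk (hh L211.two))⁻¹ (mk ww) where
  x11 := u11
  x1 := L211.U_ne_one'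
  y5 := by rw [inv_pow, h5, inv_one]
  y1 := by
    intro h
    rw [inv_eq_one] at h
    have h1 := L211.conj_four
    rw [h, one_mul, inv_one, mul_one] at h1
    apply L211.U_ne_one'
    have h2 : (mk (U 1) : TT) ^ 3 = 1 := by
      have : (mk (U 1) : TT) * (mk (U 1)) ^ 3 = mk (U 1) * 1 := by rw [← pow_succ', mul_one, ← h1]
      exact mul_left_cancel this
    have h3 : (mk (U 1) : TT) = (mk (U 1)) ^ 12 * ((mk (U 1)) ^ 11)⁻¹ := by group
    rw [h3, u11, show 12 = 3 * 4 from rfl, pow_mul, h2, one_pow, inv_one, mul_one]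
  yx := by
    rw [inv_inv]
    have h1 := L211.conj_four
    have h2 : (mk (U 1) : TT) = (mk (hh L211.two))⁻¹ * (mk (U 1)) ^ 4 * mk (hh L211.two) := by
      rw [← h1]; group
    have h4 : ∀ (a b : TT) (n : ℕ), (a⁻¹ * b * a) ^ n = a⁻¹ * b ^ n * a := fun a b n => by
      have := conj_pow (a := a⁻¹) (b := b) (i := n)
      rwa [inv_inv] at this
    obtain ⟨b, hb⟩ : ∃ b : TT, b = (mk (hh L211.two))⁻¹ * mk (U 1) * mk (hh L211.two) := ⟨_, rfl⟩
    have h3 : b ^ 4 = mk (U 1) := by rw [hb, h4, ← h2]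
    have h5 : b ^ 11 = 1 := by
      rw [hb, h4, u11]
      group
    rw [← hb, ← h3, ← pow_mul, pow_eq h5 (b := 1) (by norm_num), pow_one]
  tt := w2
  ty := by
    have h1 := wh2
    rw [inv_inv]
    have h2 : (mk ww : TT) * (mk (hh L211.two))⁻¹ * (mk ww)⁻¹ = ((mk ww : TT) * mk (hh L211.two) * (mk ww)⁻¹)⁻¹ := by
      group
    rw [h2, h1, inv_inv]
  xt := uw3

theorem centy_aux : ∀ a d : ZMod 11, a * d = 1 → ∃ k : Fin 10, a = 2 ^ (k : ℕ) ∧ d = 6 ^ (k : ℕ) := by decide

/-- centralizer of the element of order five -/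
theorem cent_five (z : TT) (hz : z * mk (hh L211.two) = mk (hh L211.two) * z) : ∃ k : ℕ, z = (mk (hh L211.two)) ^ k := by
  obtain ⟨g, rfl⟩ := mk_surj z
  rw [← mk_mul', ← mk_mul'] at hz
  have hdet := det_eq g
  have two0 : ((L211.two : (ZMod 11)ˣ) : ZMod 11) = 2 := rfl
  have two1 : (((L211.two : (ZMod 11)ˣ)⁻¹ : (ZMod 11)ˣ) : ZMod 11) = 6 := by
    rw [Units.val_inv_eq_inv_val, two0]
    exact inv_eq_of_mul_eq_one_right (by decide)
  have key : g.1 0 1 = 0 ∧ g.1 1 0 = 0 := by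
    rcases mk_eq_mk hz with h | h
    · have e1 := congrArg (fun A : SS => A.1 0 1) h
      have e2 := congrArg (fun A : SS => A.1 1 0) h
      simp only [m01, m10, hh00, hh01, hh10, hh11, two0, two1] at e1 e2
      constructor
      · have h2 : (4 : ZMod 11) * g.1 0 1 = 0 := by linear_combination -e1
        exact (mul_eq_zero.1 h2).resolve_left (by decide)
      · have h2 : (4 : ZMod 11) * g.1 1 0 = 0 := by linear_combination e2
        exact (mul_eq_zero.1 h2).resolve_left (by decide)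
    · exfalso
      have e1 := congrArg (fun A : SS => A.1 0 1) h
      have e2 := congrArg (fun A : SS => A.1 1 0) h
      have e3 := congrArg (fun A : SS => A.1 0 0) h
      have e4 := congrArg (fun A : SS => A.1 1 1) h
      simp only [n00, n01, n10, n11, m00, m01, m10, m11, hh00, hh01, hh10, hh11, two0, two1] at e1 e2 e3 e4
      have a0 : g.1 0 0 = 0 := by
        have h2 : (4 : ZMod 11) * g.1 0 0 = 0 := by linear_combination e3
        exact (mul_eq_zero.1 h2).resolve_left (by decide)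
      have a1 : g.1 0 1 = 0 := by
        have h2 : (8 : ZMod 11) * g.1 0 1 = 0 := by linear_combination e1
        exact (mul_eq_zero.1 h2).resolve_left (by decide)
      rw [a0, a1] at hdet
      simp at hdet
  obtain ⟨h01, h10⟩ := key
  rw [h01, zero_mul, sub_zero] at hdet
  obtain ⟨k, hk1, hk2⟩ := centy_aux _ _ hdet
  refine ⟨k, ?_⟩
  rw [← mk_pow', hh_pow]
  congr 1
  apply ext'
  · rw [hh00, hk1, Units.val_pow_eq_pow_val]; rfl
  · rw [hh01, h01]
  · rw [hh10, h10]
  · rw [hh11, hk2, ← inv_pow, Units.val_pow_eq_pow_val, two1]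

theorem inv_aux : ∀ k : ZMod 11, ((U k * ww) * (U k * ww) * (U k * ww) : SS).1 0 1 = 0 → k = 1 ∨ k = 10 := by
  intro k
  simp only [m00, m01, m10, m11, U00, U01, U10, U11, ww00, ww01, ww10, ww11]
  revert k
  decide

theorem inv_eleven (k : ℕ) (h : (mk (U 1) : TT) ^ k * mk ww * ((mk (U 1)) ^ k * mk ww) * ((mk (U 1)) ^ k * mk ww) = 1) :
    k % 11 = 1 ∨ k % 11 = 10 := by
  rw [← mk_pow', U_pow, mul_one, ← mk_mul', ← mk_mul', ← mk_mul', ← mk_one'] at h
  have h1 : ((U (k : ZMod 11) * ww) * (U (k : ZMod 11) * ww) * (U (k : ZMod 11) * ww) : SS).1 0 1 = 0 := by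
    rcases mk_eq_mk h with h | h
    · rw [← h]; rfl
    · have e1 := congrArg (fun A : SS => A.1 0 1) h
      simp only [n01] at e1
      have : (1 : SS).1 0 1 = (0 : ZMod 11) := rfl
      rw [this] at e1
      rwa [zero_eq_neg] at e1
  rcases inv_aux _ h1 with h2 | h2
  · left
    have h3 : (k : ZMod 11) = (1 : ℕ) := by rw [h2]; rfl
    exact (ZMod.natCast_eq_natCast_iff' _ _ _).1 h3
  · right
    have h3 : (k : ZMod 11) = (10 : ℕ) := by rw [h2]; rfl
    exact (ZMod.natCast_eq_natCast_iff' _ _ _).1 h3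

/-- the data for a subgroup isomorphic to `L₂(11)` -/
theorem exists_dat {H : Type*} [Group H] {S : Subgroup H} (e : S ≃* TT) : ∃ x y t : H, Dat S x y t := by
  have hinj : Function.Injective (S.subtype.comp e.symm.toMonoidHom) :=
    S.subtype_injective.comp e.symm.injective
  obtain ⟨f, hf⟩ : ∃ f : TT →* H, f = S.subtype.comp e.symm.toMonoidHom := ⟨_, rfl⟩
  rw [← hf] at hinj
  have hr : f.range = S := by
    rw [hf, MonoidHom.range_comp, MonoidHom.range_eq_top.2 e.symm.surjective, ← MonoidHom.range_eq_map, Subgroup.range_subtype]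
  have hS : ∀ z ∈ S, ∃ w : TT, f w = z := fun z hz => by rw [← hr] at hz; exact hz
  have hS' : ∀ w : TT, f w ∈ S := fun w => by rw [← hr]; exact ⟨w, rfl⟩
  refine ⟨f (mk (U 1)), f (mk (hh L211.two))⁻¹, f (mk ww), ?_⟩
  refine { toRel := relT.map f hinj, cl := ?_, cent := ?_, centy := ?_, eleven := ?_, inv := ?_ }
  · have h1 : Subgroup.closure {(mk (U 1) : TT), (mk (hh L211.two))⁻¹, mk ww} = ⊤ := by
      rw [eq_top_iff, ← gen, Subgroup.closure_le]
      rintro w (rfl | rfl | rfl)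
      · exact Subgroup.subset_closure (by simp)
      · exact (Subgroup.inv_mem_iff _).1 (Subgroup.subset_closure (by simp))
      · exact Subgroup.subset_closure (by simp)
    have h2 := congrArg (Subgroup.map f) h1
    rw [MonoidHom.map_closure, Set.image_insert_eq, Set.image_pair, ← MonoidHom.range_eq_map, hr] at h2
    exact h2
  · intro z hz h
    obtain ⟨w, rfl⟩ := hS z hz
    rw [← map_mul, ← map_mul] at h
    obtain ⟨k, hk⟩ := Cfsg.Agent.H912.Eleven.cent w (hinj h)
    exact ⟨k, by rw [hk, map_pow]⟩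
  · intro z hz h
    obtain ⟨w, rfl⟩ := hS z hz
    rw [← map_mul, ← map_mul] at h
    have h1 := hinj h
    rw [mul_inv_eq_iff_eq_mul, mul_assoc, eq_inv_mul_iff_mul_eq] at h1
    obtain ⟨k, hk⟩ := cent_five w h1.symm
    refine ⟨4 * k, ?_⟩
    rw [hk, map_pow, map_inv, inv_pow, eq_inv_iff_mul_eq_one, ← pow_add, ← map_pow,
      pow_eq h5 (b := 0) (by omega), pow_zero, map_one]
  · intro z hz h11 h1
    obtain ⟨w, rfl⟩ := hS z hz
    obtain ⟨c, k, hk, hk0, h⟩ := conj_eleven w (hinj (by rw [map_pow, h11, map_one]))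
      (fun h => h1 (by rw [h, map_one]))
    exact ⟨f c, hS' c, k, hk, hk0, by rw [← map_inv, ← map_mul, ← map_mul, h, map_pow]⟩
  · intro k h
    refine inv_eleven k (hinj ?_)
    rw [map_one, ← h]
    simp only [map_mul, map_pow]

/-- **Box N, `F*(H) ≅ L₂(11)`.** -/
theorem psl {H : Type*} [Group H] [Finite H] {F : Type*} [Field F] [Fintype F] (hF : Fintype.card F = 11)
    (e : Nonempty (↥(Cfsg.generalizedFittingSubgroup H) ≃* ProjectiveSpecialLinearGroup (Fin 2) F)) :
    ∃ x y t : H, Rel x y t ∧ (Subgroup.closure {x, y, t} = ⊤ ∨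
      ∃ h : H, h ∉ Subgroup.closure {x, y, t} ∧ h * h = 1 ∧ h * x * h⁻¹ = x⁻¹ ∧ h * y = y * h ∧ h * t = t * h ∧
        Subgroup.closure {x, y, t, h} = ⊤) := by
  have : Fact (Nat.Prime 11) := ⟨by norm_num⟩
  obtain ⟨e⟩ := e
  have e' : ↥(Cfsg.generalizedFittingSubgroup H) ≃* TT :=
    e.trans (LieClassical.FieldTransfer.pslCongr (ZMod.ringEquivOfPrime F (by norm_num) hF)).symm
  obtain ⟨x, y, t, hD⟩ := exists_dat e'
  refine ⟨x, y, t, hD.toRel, ?_⟩
  rw [hD.cl]
  by_cases hS : Cfsg.generalizedFittingSubgroup H = ⊤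
  · exact Or.inl hS
  right
  have hn : (Cfsg.generalizedFittingSubgroup H).Normal := Lib.GenFitting.genFitting_normal (G := H)
  refine hD.ext (fun z hz => ?_) hS
  have hs : IsSimpleGroup ↥(Cfsg.generalizedFittingSubgroup H) := by
    have h1 : IsSimpleGroup TT := Cfsg.Agent.TwoFusion.SLTwoFacts.isSimpleGroup_psl (by rw [ZMod.card]; norm_num)
    exact (MulEquiv.isSimpleGroup_congr e').2 h1
  refine UGT.End.OfFix.centralizer_fstar hs ?_ hz
  intro hc
  have h1 := hc.1.1
  have hx : x ∈ Cfsg.generalizedFittingSubgroup H := by rw [← hD.cl]; exact Subgroup.subset_closure (by simp)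
  have hy : y ∈ Cfsg.generalizedFittingSubgroup H := by rw [← hD.cl]; exact Subgroup.subset_closure (by simp)
  have h2 := congrArg Subtype.val (h1 ⟨y, hy⟩ ⟨x, hx⟩)
  have h3 : y * x = x * y := h2
  have h4 := hD.yx
  rw [h3, mul_inv_cancel_right] at h4
  apply hD.x1
  have h5 : x ^ 2 = 1 := by
    have : x * x ^ 2 = x * 1 := by rw [← pow_succ', mul_one, ← h4]
    exact mul_left_cancel this
  have h6 : x = x ^ 12 := by rw [pow_eq hD.x11 (a := 12) (b := 1) (by norm_num), pow_one]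
  rw [h6, show 12 = 2 * 6 from rfl, pow_mul, h5, one_pow]

end Cfsg.Agent.H828.E83
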